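import Mathlib
import Cfsg.Prelude.Def_Solvable
import Cfsg.Prelude.Def_Transfer
import Cfsg.Agent.PermutationGroups.RegularLinear
import Cfsg.Agent.PermutationGroups.RegularCount
import Cfsg.Agent.PermutationGroups.ZassReduction
import Cfsg.Agent.Transfer.PNilpotentBasic
set_option linter.all false

/-!
# Linear groups transitive on the non-zero vectors whose point stabilizers are `p`-groups

`V` is a finite vector space over the field with `p` elements, `H ≤ GL(V)` is transitive on the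
non-zero vectors and the stabilizers are `p`-groups (so they are Sylow `p`-subgroups of `H`).
-/

set_option autoImplicit false

namespace Cfsg.Agent.H688.TransLin

open Cfsg Module
open Cfsg.Agent.PermutationGroups.RegularLinear

variable {p : ℕ} [Fact p.Prime] {V : Type*} [AddCommGroup V] [Module (ZMod p) V]

/-- Transitive on the non-zero vectors with stabilizers `p`-groups. -/
structure TrLin (H : Subgroup (V ≃ₗ[ZMod p] V)) : Prop where
  trans : ∀ v w : V, v ≠ 0 → w ≠ 0 → ∃ h ∈ H, h v = w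
  stab : ∀ v : V, v ≠ 0 → ∀ h ∈ H, h v = v → ∃ k : ℕ, h ^ p ^ k = 1

variable {H : Subgroup (V ≃ₗ[ZMod p] V)}

/-- The stabilizer of a vector. -/
def stb (H : Subgroup (V ≃ₗ[ZMod p] V)) (v : V) : Subgroup H where
  carrier := {h | (h : V ≃ₗ[ZMod p] V) v = v}
  one_mem' := rfl
  mul_mem' := by
    intro a b ha hb
    show (a : V ≃ₗ[ZMod p] V) ((b : V ≃ₗ[ZMod p] V) v) = v
    rw [show (b : V ≃ₗ[ZMod p] V) v = v from hb]
    exact ha
  inv_mem' := by
    intro a ha
    show (a : V ≃ₗ[ZMod p] V).symm v = v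
    rw [LinearEquiv.symm_apply_eq]
    exact (show (a : V ≃ₗ[ZMod p] V) v = v from ha).symm

theorem mem_stb {v : V} {h : H} : h ∈ stb H v ↔ (h : V ≃ₗ[ZMod p] V) v = v := Iff.rfl

theorem isPGroup_stb (hH : TrLin H) {v : V} (hv : v ≠ 0) : IsPGroup p (stb H v) := by
  rintro ⟨h, hh⟩
  obtain ⟨k, hk⟩ := hH.stab v hv h h.2 hh
  exact ⟨k, Subtype.ext (Subtype.ext hk)⟩

theorem index_stb [Finite V] (hH : TrLin H) {v : V} (hv : v ≠ 0) :
    (stb H v).index = Nat.card V - 1 := by
  classical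
  have hfH : Finite (V ≃ₗ[ZMod p] V) := finite_gl
  have hfix : ∀ h : H, (h : V ≃ₗ[ZMod p] V) v ≠ 0 := fun h h0 =>
    hv ((LinearEquiv.map_eq_zero_iff _).1 h0)
  have e : (H ⧸ stb H v) ≃ {w : V // w ≠ 0} := by
    refine Equiv.ofBijective (fun q => Quotient.liftOn' q
      (fun h : H => (⟨(h : V ≃ₗ[ZMod p] V) v, hfix h⟩ : {w : V // w ≠ 0})) ?_) ⟨?_, ?_⟩
    · intro a b hab
      rw [QuotientGroup.leftRel_apply, mem_stb] at hab
      apply Subtype.ext
      show (a : V ≃ₗ[ZMod p] V) v = (b : V ≃ₗ[ZMod p] V) v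
      have h1 : (a : V ≃ₗ[ZMod p] V).symm ((b : V ≃ₗ[ZMod p] V) v) = v := hab
      rw [LinearEquiv.symm_apply_eq] at h1
      exact h1.symm
    · intro a b
      induction a using QuotientGroup.induction_on with | _ a => ?_
      induction b using QuotientGroup.induction_on with | _ b => ?_
      intro hab
      have h1 : (a : V ≃ₗ[ZMod p] V) v = (b : V ≃ₗ[ZMod p] V) v := congrArg Subtype.val hab
      rw [QuotientGroup.eq, mem_stb]
      show (a : V ≃ₗ[ZMod p] V).symm ((b : V ≃ₗ[ZMod p] V) v) = v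
      rw [LinearEquiv.symm_apply_eq]
      exact h1.symm
    · rintro ⟨w, hw⟩
      obtain ⟨h, hh, rfl⟩ := hH.trans v w hv hw
      exact ⟨QuotientGroup.mk ⟨h, hh⟩, rfl⟩
  rw [Subgroup.index, Nat.card_congr e]
  have h1 : Nat.card {w : V // w ≠ 0} + 1 = Nat.card V := by
    rw [← Finite.card_option]
    exact Nat.card_congr ((Equiv.optionSubtype (0 : V)).symm (Equiv.refl _)).1
  omega

theorem exists_card_V (p : ℕ) [Fact p.Prime] (V : Type*) [AddCommGroup V] [Module (ZMod p) V]
    [Finite V] : ∃ n : ℕ, Nat.card V = p ^ n := by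
  have : Module.Finite (ZMod p) V := Module.Finite.of_finite
  refine ⟨Module.finrank (ZMod p) V, ?_⟩
  rw [Module.natCard_eq_pow_finrank (K := ZMod p) (V := V), Nat.card_zmod]

theorem exists_card_V' (p : ℕ) [Fact p.Prime] (V : Type*) [AddCommGroup V] [Module (ZMod p) V]
    [Finite V] [Nontrivial V] : ∃ n : ℕ, n ≠ 0 ∧ Nat.card V = p ^ n := by
  obtain ⟨n, hn⟩ := exists_card_V p V
  refine ⟨n, ?_, hn⟩
  rintro rfl
  rw [pow_zero] at hn
  have := Finite.one_lt_card (α := V)
  omega

theorem coprime_pred [Finite V] [Nontrivial V] : (Nat.card V - 1).Coprime p := by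
  obtain ⟨n, hn0, hn⟩ := exists_card_V' p V
  have hp : p.Prime := Fact.out
  have h1 : p ∣ Nat.card V := by
    rw [hn]
    exact dvd_pow_self p hn0
  have h2 : 0 < Nat.card V := Nat.card_pos
  rw [Nat.coprime_comm, Nat.Prime.coprime_iff_not_dvd hp]
  intro h3
  have h4 : p ∣ Nat.card V - (Nat.card V - 1) := Nat.dvd_sub h1 h3
  have h5 : Nat.card V - (Nat.card V - 1) = 1 := by omega
  rw [h5] at h4
  exact hp.one_lt.ne' (Nat.dvd_one.1 h4)

/-- `|H| = (|V| - 1) p^a`. -/
theorem card_eq [Finite V] [Nontrivial V] (hH : TrLin H) :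
    ∃ a : ℕ, Nat.card H = (Nat.card V - 1) * p ^ a := by
  have hfH : Finite (V ≃ₗ[ZMod p] V) := finite_gl
  obtain ⟨v, hv⟩ := exists_ne (0 : V)
  obtain ⟨a, ha⟩ := IsPGroup.iff_card.1 (isPGroup_stb hH hv)
  refine ⟨a, ?_⟩
  rw [← ha, ← index_stb hH hv]
  exact (Subgroup.index_mul_card _).symm

/-- Elements of order prime to `p` have no fixed vectors. -/
theorem fpf (hH : TrLin H) {h : H} (ho : (orderOf h).Coprime p) (h1 : h ≠ 1) {v : V}
    (hv : (h : V ≃ₗ[ZMod p] V) v = v) : v = 0 := by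
  by_contra hv0
  obtain ⟨k, hk⟩ := hH.stab v hv0 h h.2 hv
  have h2 : h ^ p ^ k = 1 := Subtype.ext hk
  have h3 : orderOf h ∣ p ^ k := orderOf_dvd_of_pow_eq_one h2
  exact h1 (orderOf_eq_one_iff.1 ((ho.pow_right k).eq_one_of_dvd h3))

/-- The action of a subgroup of `H` on the multiplicative version of `V`. -/
def actHom (H : Subgroup (V ≃ₗ[ZMod p] V)) : H →* MulAut (Multiplicative V) where
  toFun h :=
    { toFun := fun v => Multiplicative.ofAdd ((h : V ≃ₗ[ZMod p] V) v.toAdd)
      invFun := fun v => Multiplicative.ofAdd ((h : V ≃ₗ[ZMod p] V).symm v.toAdd)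
      left_inv := fun v => by
        show Multiplicative.ofAdd ((h : V ≃ₗ[ZMod p] V).symm ((h : V ≃ₗ[ZMod p] V) v.toAdd)) = v
        rw [LinearEquiv.symm_apply_apply]
        rfl
      right_inv := fun v => by
        show Multiplicative.ofAdd ((h : V ≃ₗ[ZMod p] V) ((h : V ≃ₗ[ZMod p] V).symm v.toAdd)) = v
        rw [LinearEquiv.apply_symm_apply]
        rfl
      map_mul' := fun v w => by
        show Multiplicative.ofAdd ((h : V ≃ₗ[ZMod p] V) (v.toAdd + w.toAdd)) = _
        rw [map_add]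
        rfl }
  map_one' := rfl
  map_mul' _ _ := rfl

theorem actHom_apply (h : H) (v : Multiplicative V) :
    actHom H h v = Multiplicative.ofAdd ((h : V ≃ₗ[ZMod p] V) v.toAdd) := rfl

/-- A subgroup of order prime to `p` acts without fixed points. -/
theorem fpf_sub (hH : TrLin H) [Finite V] (Q : Subgroup H) (hQ : (Nat.card Q).Coprime p) :
    ∀ g : Q, g ≠ 1 → ∀ v : Multiplicative V, ((actHom H).comp Q.subtype) g v = v → v = 1 := by
  have hfH : Finite (V ≃ₗ[ZMod p] V) := finite_gl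
  intro g hg v hv
  have h1 : ((g : H) : V ≃ₗ[ZMod p] V) v.toAdd = v.toAdd :=
    congrArg Multiplicative.toAdd hv
  have h2 : (orderOf (g : H)).Coprime p := by
    rw [Subgroup.orderOf_coe]
    exact hQ.coprime_dvd_left (orderOf_dvd_natCard g)
  have h3 := fpf hH h2 (fun h => hg (Subtype.ext h)) h1
  exact congrArg Multiplicative.ofAdd h3

/-- Commutative subgroups of order prime to `p` are cyclic. -/
theorem isCyclic_of_comm (hH : TrLin H) [Finite V] [Nontrivial V] (Q : Subgroup H)
    (hQ : (Nat.card Q).Coprime p) (hc : IsMulCommutative Q) : IsCyclic Q := by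
  have hfH : Finite (V ≃ₗ[ZMod p] V) := finite_gl
  exact Cfsg.Agent.Solvable.FixedPointFree.isCyclic_of_comm' (A := Q) (V := Multiplicative V)
    hc.is_comm.comm ((actHom H).comp Q.subtype) (fpf_sub hH Q hQ)

/-- `q`-subgroups for `q ≠ p` are cyclic or generalized quaternion. -/
theorem cyclic_or_quaternion (hH : TrLin H) [Finite V] [Nontrivial V] {q : ℕ} [hq : Fact q.Prime]
    (hqp : q ≠ p) (Q : Subgroup H) (hQ : IsPGroup q Q) :
    IsCyclic Q ∨ (q = 2 ∧ ∃ n : ℕ, 1 ≤ n ∧ Nonempty (Q ≃* QuaternionGroup (2 ^ n))) := by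
  have hfH : Finite (V ≃ₗ[ZMod p] V) := finite_gl
  have hp : p.Prime := Fact.out
  have hcop : (Nat.card Q).Coprime p := by
    obtain ⟨k, hk⟩ := IsPGroup.iff_card.1 hQ
    rw [hk]
    exact Nat.Coprime.pow_left k ((Nat.coprime_primes hq.out hp).2 hqp)
  let S : Sylow q Q := (show IsPGroup q (⊤ : Subgroup Q) from hQ.to_subgroup ⊤).toSylow (by
    rw [Subgroup.index_top]
    exact hq.out.not_dvd_one)
  have e : S ≃* Q := Subgroup.topEquiv
  rcases Cfsg.Agent.PermutationGroups.ZassReduction.sylow_cyclic_or_quaternion (G := Q)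
    (V := Multiplicative V) ((actHom H).comp Q.subtype) (fpf_sub hH Q hcop) q S with h | ⟨h1, n, hn, ⟨f⟩⟩
  · left
    exact isCyclic_of_surjective e e.surjective
  · exact Or.inr ⟨h1, n, hn, ⟨e.symm.trans f⟩⟩

/-- Commutative normal subgroups are cyclic of order prime to `p`. -/
theorem normal_comm (hH : TrLin H) [Finite V] [Nontrivial V] (A : Subgroup H) (hA : A.Normal)
    (hAc : IsMulCommutative A) : IsCyclic A ∧ (Nat.card A).Coprime p := by
  have hp : p.Prime := Fact.out
  have hinj := groupAlg_injective_of_comm H hH.trans A hA hAc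
  obtain ⟨h1, h2⟩ := isCyclic_and_card_dvd (groupAlg A) hinj (H.subtype.comp A.subtype)
    (fun a b hab => Subtype.ext (Subtype.ext hab)) (fun a => coe_mem_groupAlg A a.2)
  refine ⟨h1, ?_⟩
  have hfin : Finite (End (ZMod p) V) := finite_end
  have hnt : Nontrivial (groupAlg A) := by
    have := isDomain_of_injective (groupAlg A) hinj
    infer_instance
  have h3 := coprime_pred (p := p) (V := groupAlg A)
  exact h3.coprime_dvd_left h2

/-- There are no nontrivial normal `p`-subgroups. -/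
theorem eq_bot_of_normal_p (hH : TrLin H) [Finite V] [Nontrivial V] (K : Subgroup H)
    (hK : K.Normal) (hKp : IsPGroup p K) : K = ⊥ := by
  have hfH : Finite (V ≃ₗ[ZMod p] V) := finite_gl
  have hp : p.Prime := Fact.out
  by_contra hne
  have hnt : Nontrivial K := (Subgroup.nontrivial_iff_ne_bot _).2 hne
  have h1 := hKp.bot_lt_center
  set Z : Subgroup H := (Subgroup.center K).map K.subtype with hZ
  have hZn : Z.Normal := inferInstance
  have hZc : IsMulCommutative Z := by
    refine ⟨⟨?_⟩⟩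
    rintro ⟨_, a, ha, rfl⟩ ⟨_, b, hb, rfl⟩
    apply Subtype.ext
    exact congrArg K.subtype (Subgroup.mem_center_iff.1 hb a)
  have h2 := (normal_comm hH Z hZn hZc).2
  have h3 : IsPGroup p Z := (hKp.to_subgroup _).map _
  obtain ⟨k, hk⟩ := IsPGroup.iff_card.1 h3
  rw [hk] at h2
  have hk0 : k = 0 := by
    by_contra hk0
    exact hp.one_lt.ne' (Nat.Coprime.eq_one_of_dvd
      (by rw [Nat.coprime_comm]; exact (Nat.coprime_pow_left_iff (Nat.pos_of_ne_zero hk0) _ _).1 h2)
      (dvd_refl p))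
  rw [hk0, pow_zero] at hk
  have h4 : Z = ⊥ := Subgroup.card_eq_one.1 hk
  rw [hZ, Subgroup.map_eq_bot_iff_of_injective _ K.subtype_injective] at h4
  exact h1.ne' h4

end Cfsg.Agent.H688.TransLin
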