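import Mathlib
import Cfsg.Agent.H686.GagolaSyl
import Cfsg.Agent.H688.GagCoset
import Cfsg.Agent.H688.TransLin
import Cfsg.Agent.Lib.Cores
set_option linter.all false

/-!
# Gagola characters: the linear group `G / O_p(G)`
-/

set_option autoImplicit false

namespace Cfsg.Agent.H688.GagBridge

open Cfsg Cfsg.Agent.H686.Gagola Cfsg.Agent.H688.GagCoset Cfsg.Agent.H688.TransLin

universe u

/-- A linear representation from an action by additive maps. -/
def mkHom {X V : Type*} [Group X] [AddCommGroup V] (p : ℕ) [Module (ZMod p) V]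
    (cj : X → V →+ V) (h1 : ∀ v, cj 1 v = v) (hm : ∀ a b v, cj (a * b) v = cj a (cj b v)) :
    X →* (V ≃ₗ[ZMod p] V) where
  toFun g :=
    { toFun := cj g
      invFun := cj g⁻¹
      left_inv := fun v => by rw [← hm, inv_mul_cancel, h1]
      right_inv := fun v => by rw [← hm, mul_inv_cancel, h1]
      map_add' := (cj g).map_add
      map_smul' := fun c v => ZMod.map_smul (cj g) c v }
  map_one' := LinearEquiv.ext fun v => h1 v
  map_mul' a b := LinearEquiv.ext fun v => hm a b v

variable {G : Type u} [Group G] [Finite G] {χ : IrrCharacter G} {x : G}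

theorem centralizer_nrm_eq (hG : 2 < Nat.card G) (h : Dat χ x) {p : ℕ} [hp : Fact p.Prime]
    (hpg : IsPGroup p (nrm χ)) : Subgroup.centralizer (nrm χ : Set G) = pCore p G := by
  have hx : x ∈ nrm χ := (mem_nrm_iff hG h x).2 (Or.inr (IsConj.refl x))
  apply le_antisymm
  · apply Cfsg.Agent.Lib.Cores.le_pCore inferInstance
    obtain ⟨P, hP⟩ := exists_sylow hG h hpg
    have h1 : IsPGroup p (Subgroup.centralizer ({x} : Set G)) := by
      rw [hP]
      exact P.2
    exact h1.to_le (Subgroup.centralizer_le (Set.singleton_subset_iff.2 hx))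
  · have hc : IsPGroup p (pCore p G) := Cfsg.Agent.Lib.Cores.pCore_isPGroup p
    have hle : nrm χ ≤ pCore p G := Cfsg.Agent.Lib.Cores.le_pCore inferInstance hpg
    have hn : (pCore p G).Normal := Cfsg.Agent.Lib.Cores.pCore_normal p
    have hnt : Nontrivial (pCore p G) := by
      rw [Subgroup.nontrivial_iff_ne_bot]
      intro h1
      rw [h1, le_bot_iff] at hle
      exact nrm_ne_bot hG h hle
    have h1 := hc.bot_lt_center
    have h2 : nrm χ ≤ (Subgroup.center (pCore p G)).map (pCore p G).subtype := by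
      apply nrm_le hG h
      rw [Ne, Subgroup.map_eq_bot_iff_of_injective _ (Subgroup.subtype_injective _)]
      exact h1.ne'
    intro g hg
    rw [Subgroup.mem_centralizer_iff]
    intro n hn'
    obtain ⟨c, hc, rfl⟩ := h2 hn'
    exact (congrArg Subtype.val (Subgroup.mem_center_iff.1 hc ⟨g, hg⟩)).symm

/-- An elementary abelian group as a vector space. -/
theorem exists_space (X : Type u) [Group X] (hc : IsMulCommutative X) (p : ℕ) [Fact p.Prime]
    (hexp : ∀ x : X, x ^ p = 1) : ∃ (V : Type u) (_ : AddCommGroup V) (_ : Module (ZMod p) V),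
      Nonempty (V ≃+ Additive X) := by
  let C : CommGroup X := { (inferInstance : Group X) with mul_comm := hc.is_comm.comm }
  refine ⟨Additive X, inferInstance, AddCommGroup.zmodModule (n := p) (fun v => ?_),
    ⟨AddEquiv.refl _⟩⟩
  exact congrArg Additive.ofMul (hexp v.toMul)

/-- The linear group of a Gagola character. -/
theorem exists_lin (hG : 2 < Nat.card G) (χ : IrrCharacter G)
    (hχ : Nat.card {C : ConjClasses G // ∃ g ∈ C.carrier, (χ : G → ℂ) g ≠ 0} = 2) :
    ∃ p : ℕ, ∃ _ : Fact p.Prime, (∀ q : ℕ, q.Prime → (pCore q G ≠ ⊥ ↔ q = p)) ∧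
      ∃ (V : Type u) (_ : AddCommGroup V) (_ : Module (ZMod p) V) (_ : Finite V) (_ : Nontrivial V)
        (H : Subgroup (V ≃ₗ[ZMod p] V)), TrLin H ∧ Nonempty ((G ⧸ pCore p G) ≃* H) := by
  classical
  obtain ⟨x, h⟩ := exists_dat χ hχ
  obtain ⟨p, hpp, hexp, hpg⟩ := isPGroup_nrm hG h
  have hp : Fact p.Prime := ⟨hpp⟩
  have hx : x ∈ nrm χ := (mem_nrm_iff hG h x).2 (Or.inr (IsConj.refl x))
  refine ⟨p, hp, ?_, ?_⟩
  · intro q hq
    have hqf : Fact q.Prime := ⟨hq⟩
    constructor
    · intro h1
      have hn : (pCore q G).Normal := Cfsg.Agent.Lib.Cores.pCore_normal q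
      have h2 := nrm_le hG h h1
      have hc : IsPGroup q (pCore q G) := Cfsg.Agent.Lib.Cores.pCore_isPGroup q
      obtain ⟨k, hk⟩ := hc ⟨x, h2 hx⟩
      have h3 : x ^ q ^ k = 1 := congrArg Subtype.val hk
      have h4 : orderOf x = p := orderOf_eq_prime (hexp x hx) h.ne_one
      have h5 : p ∣ q ^ k := h4 ▸ orderOf_dvd_of_pow_eq_one h3
      exact ((Nat.prime_dvd_prime_iff_eq hpp hq).1 (hpp.dvd_of_dvd_pow h5)).symm
    · rintro rfl h1
      have h2 := Cfsg.Agent.Lib.Cores.le_pCore (nrm_normal χ) hpg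
      rw [h1, le_bot_iff] at h2
      exact nrm_ne_bot hG h h2
  · obtain ⟨V, _, _, ⟨e⟩⟩ := exists_space (nrm χ) (comm_nrm hG h) p
      (fun y => Subtype.ext (hexp _ y.2))
    have hntN : Nontrivial (nrm χ) := (Subgroup.nontrivial_iff_ne_bot _).2 (nrm_ne_bot hG h)
    have hfV : Finite V := Finite.of_injective e e.injective
    have hnV : Nontrivial V := e.toEquiv.nontrivial
    -- the element of `N` belonging to a vector
    set f : V → G := fun v => (((e v).toMul : nrm χ) : G) with hf
    have hfinj : Function.Injective f := fun v w hvw => by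
      apply e.injective
      apply Additive.toMul.injective
      exact Subtype.ext hvw
    have hfN : ∀ v, f v ∈ nrm χ := fun v => (e v).toMul.2
    have hf0 : f 0 = 1 := by
      rw [hf]
      simp only [map_zero]
      rfl
    let cj : G → V →+ V := fun g =>
      (e.symm : Additive (nrm χ) →+ V).comp ((MonoidHom.toAdditive
        (MulAut.conjNormal g : MulAut (nrm χ)).toMonoidHom).comp (e : V →+ Additive (nrm χ)))
    have hcj : ∀ (g : G) (v : V), f (cj g v) = g * f v * g⁻¹ := fun g v => by
      have h1 : e (cj g v) = (MonoidHom.toAdditive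
          (MulAut.conjNormal g : MulAut (nrm χ)).toMonoidHom) (e v) := e.apply_symm_apply _
      rw [hf]
      simp only [h1]
      rfl
    have hcj1 : ∀ v, cj 1 v = v := fun v => by
      apply hfinj
      rw [hcj]
      simp
    have hcjm : ∀ a b v, cj (a * b) v = cj a (cj b v) := fun a b v => by
      apply hfinj
      rw [hcj, hcj, hcj]
      group
    set ρ : G →* (V ≃ₗ[ZMod p] V) := mkHom p cj hcj1 hcjm with hρdef
    have hρ : ∀ (g : G) (v : V), f (ρ g v) = g * f v * g⁻¹ := fun g v => hcj g v
    have hker : ρ.ker = pCore p G := by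
      rw [← centralizer_nrm_eq hG h hpg]
      ext g
      rw [MonoidHom.mem_ker, Subgroup.mem_centralizer_iff]
      constructor
      · intro h1 n hn
        obtain ⟨v, hv⟩ : ∃ v, f v = n := by
          refine ⟨e.symm (Additive.ofMul ⟨n, hn⟩), ?_⟩
          rw [hf]
          simp only [e.apply_symm_apply]
          rfl
        have h2 := hρ g v
        rw [h1, hv] at h2
        have h3 : n = g * n * g⁻¹ := by rw [← h2, ← hv]; rfl
        calc n * g = (g * n * g⁻¹) * g := by rw [← h3]
          _ = g * n := by group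
      · intro h1
        ext v
        apply hfinj
        rw [hρ]
        have h2 := h1 _ (hfN v)
        rw [← h2, mul_inv_cancel_right]
        rfl
    refine ⟨V, inferInstance, inferInstance, hfV, hnV, ρ.range,
      ⟨?_, ?_⟩, ⟨(QuotientGroup.quotientMulEquivOfEq hker.symm).trans
        (QuotientGroup.quotientKerEquivRange ρ)⟩⟩
    · intro v w hv hw
      have hv1 : f v ≠ 1 := fun h1 => hv (hfinj (by rw [h1, hf0]))
      have hw1 : f w ≠ 1 := fun h1 => hw (hfinj (by rw [h1, hf0]))
      obtain ⟨g, hg⟩ := conj_of_mem hG h (hfN v) (hfN w) hv1 hw1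
      refine ⟨ρ g, ⟨g, rfl⟩, ?_⟩
      apply hfinj
      rw [hρ]
      exact hg
    · rintro v hv _ ⟨g, rfl⟩ hgv
      have hv1 : f v ≠ 1 := fun h1 => hv (hfinj (by rw [h1, hf0]))
      obtain ⟨P, hP⟩ := exists_sylow hG (dat_of_mem hG h (hfN v) hv1) hpg
      have h1 := hρ g v
      rw [hgv] at h1
      have h2 : g ∈ Subgroup.centralizer ({f v} : Set G) := by
        rw [mem_centralizer_singleton]
        calc g * f v = (g * f v * g⁻¹) * g := by group
          _ = f v * g := by rw [← h1]
      rw [hP] at h2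
      obtain ⟨k, hk⟩ := P.2 ⟨g, h2⟩
      have h3 : g ^ p ^ k = 1 := congrArg Subtype.val hk
      exact ⟨k, by rw [← map_pow, h3, map_one]⟩

end Cfsg.Agent.H688.GagBridge
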